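import Mathlib.Data.ZMod.Basic
import Mathlib.FieldTheory.Finite.Basic
import Mathlib.Data.Nat.Factorization.Basic
import Mathlib.NumberTheory.Padics.PadicVal.Basic

/-!
# S3691, P1a: arithmetic (helper60)

`Ok N D U` : numbers of a type, `D` the even/untwisted degrees `d` (factors `q ^ d - 1`), `U` the odd `i` with factors `q ^ i + 1`.
`lcm_of` : two primes of orders `f m`, `f (m - 1)` modulo which `p` ... give `f m (m - 1) ≤ 2 g N`.
-/

set_option autoImplicit false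

namespace Cfsg.Agent.H60.Rd

/-- the numbers of a type -/
structure Ok (N : ℕ) (D U : ℕ → Prop) : Prop where
  pos : 1 ≤ N
  dpos : ∀ d, D d → 1 ≤ d
  lcm : ∀ d d', D d → D d' → Nat.lcm d d' ≤ 2 * N
  lcm' : ∀ d i, D d → U i → Nat.lcm d (2 * i) ≤ 2 * N
  odd : ∀ i, U i → Odd i

section

variable {p r : ℕ}

theorem cast_pow_eq_one_iff (k : ℕ) (hp : 1 ≤ p) : ((p : ZMod r) ^ k = 1) ↔ r ∣ p ^ k - 1 := by
  rw [← ZMod.natCast_eq_zero_iff, Nat.cast_sub (Nat.one_le_pow _ _ hp), Nat.cast_pow, Nat.cast_one, sub_eq_zero]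

theorem ord_dvd_of_sub {k : ℕ} (hp : 1 ≤ p) (h : r ∣ p ^ k - 1) : orderOf (p : ZMod r) ∣ k :=
  orderOf_dvd_of_pow_eq_one ((cast_pow_eq_one_iff k hp).2 h)

theorem pow_eq_neg_one {k : ℕ} (h : r ∣ p ^ k + 1) : (p : ZMod r) ^ k = -1 := by
  rw [← ZMod.natCast_eq_zero_iff, Nat.cast_add, Nat.cast_pow, Nat.cast_one] at h
  exact eq_neg_of_add_eq_zero_left h

theorem ord_dvd_of_add {k : ℕ} (h : r ∣ p ^ k + 1) : orderOf (p : ZMod r) ∣ 2 * k := by
  apply orderOf_dvd_of_pow_eq_one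
  rw [mul_comm, pow_mul, pow_eq_neg_one h]
  norm_num

theorem not_ord_dvd_of_add {k : ℕ} (hr : r.Prime) (hr2 : r ≠ 2) (h : r ∣ p ^ k + 1) : ¬ orderOf (p : ZMod r) ∣ k := by
  intro h1
  have h2 := orderOf_dvd_iff_pow_eq_one.1 h1
  rw [pow_eq_neg_one h] at h2
  have : Fact r.Prime := ⟨hr⟩
  have : Fact (2 < r) := ⟨lt_of_le_of_ne hr.two_le (Ne.symm hr2)⟩
  exact ZMod.neg_one_ne_one h2

/-- `a ∣ 2 k`, `a ∤ k` : the 2-parts of `a` and `2 k` agree -/
theorem val_eq {a k : ℕ} (hk : k ≠ 0) (h1 : a ∣ 2 * k) (h2 : ¬ a ∣ k) : a.factorization 2 = 1 + k.factorization 2 := by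
  have ha : a ≠ 0 := by
    rintro rfl
    rw [zero_dvd_iff] at h1
    omega
  have h3 : (2 * k).factorization 2 = 1 + k.factorization 2 := by
    rw [Nat.factorization_mul (by norm_num) hk, Finsupp.add_apply, Nat.Prime.factorization_self Nat.prime_two]
  apply le_antisymm
  · rw [← h3]
    exact (Nat.factorization_le_iff_dvd ha (by omega)).2 h1 2
  · by_contra hlt
    apply h2
    rw [← Nat.factorization_le_iff_dvd ha hk]
    intro t
    by_cases ht : t = 2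
    · subst ht
      omega
    · have h4 := (Nat.factorization_le_iff_dvd ha (by omega : 2 * k ≠ 0)).2 h1 t
      rw [Nat.factorization_mul (by norm_num) hk, Finsupp.add_apply, Nat.Prime.factorization Nat.prime_two,
        Finsupp.single_eq_of_ne (by simpa using ht), zero_add] at h4
      exact h4

theorem par {f m g i j : ℕ} (hf : 1 ≤ f) (hm : 2 ≤ m) (hg : 1 ≤ g) (hi : Odd i) (hj : Odd j)
    (h1 : f * m ∣ 2 * (g * i)) (h2 : ¬ f * m ∣ g * i) (h3 : f * (m - 1) ∣ 2 * (g * j)) (h4 : ¬ f * (m - 1) ∣ g * j) : False := by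
  have hi0 : i ≠ 0 := by rintro rfl; simp at hi
  have hj0 : j ≠ 0 := by rintro rfl; simp at hj
  have e1 := val_eq (by positivity) h1 h2
  have e2 := val_eq (by positivity) h3 h4
  have od : ∀ {i : ℕ}, Odd i → i.factorization 2 = 0 := fun h =>
    Nat.factorization_eq_zero_of_not_dvd (by rw [Nat.two_dvd_ne_zero]; exact Nat.odd_iff.1 h)
  rw [Nat.factorization_mul (by omega) (by omega), Nat.factorization_mul (by omega) hi0, Finsupp.add_apply, Finsupp.add_apply,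
    od hi] at e1
  rw [Nat.factorization_mul (by omega) (by omega), Nat.factorization_mul (by omega) hj0, Finsupp.add_apply, Finsupp.add_apply,
    od hj] at e2
  have e3 : m.factorization 2 = (m - 1).factorization 2 := by omega
  rcases Nat.even_or_odd m with hme | hmo
  · have ho : Odd (m - 1) := by
      rcases hme with ⟨c, hc⟩
      exact ⟨c - 1, by omega⟩
    rw [od ho] at e3
    have := (Nat.Prime.dvd_iff_one_le_factorization Nat.prime_two (by omega)).1 hme.two_dvd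
    omega
  · rw [od hmo] at e3
    have he : Even (m - 1) := by
      rcases hmo with ⟨c, hc⟩
      exact ⟨c, by omega⟩
    have := (Nat.Prime.dvd_iff_one_le_factorization Nat.prime_two (by omega)).1 he.two_dvd
    omega

theorem lcm_fm {f m : ℕ} (hm : 2 ≤ m) : Nat.lcm (f * m) (f * (m - 1)) = f * (m * (m - 1)) := by
  rw [Nat.lcm_mul_left]
  congr 1
  apply Nat.Coprime.lcm_eq_mul
  have h1 : Nat.Coprime (m - 1 + 1) (m - 1) := by simp
  rwa [show m - 1 + 1 = m by omega] at h1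

/-- two divisors of multiples of `g` -/
theorem le_of_dvd {f m g x y N : ℕ} (hm : 2 ≤ m) (hx : 1 ≤ x) (hy : 1 ≤ y) (hg : 1 ≤ g)
    (h1 : f * m ∣ g * x) (h2 : f * (m - 1) ∣ g * y) (h : Nat.lcm x y ≤ 2 * N) : f * (m * (m - 1)) ≤ 2 * (g * N) := by
  have h3 : f * (m * (m - 1)) ∣ g * Nat.lcm x y := by
    rw [← lcm_fm hm, ← Nat.lcm_mul_left]
    exact Nat.lcm_dvd (h1.trans (Nat.dvd_lcm_left _ _)) (h2.trans (Nat.dvd_lcm_right _ _))
  have h4 : 0 < Nat.lcm x y := Nat.lcm_pos hx hy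
  calc f * (m * (m - 1)) ≤ g * Nat.lcm x y := Nat.le_of_dvd (Nat.mul_pos hg h4) h3
    _ ≤ g * (2 * N) := Nat.mul_le_mul_left _ h
    _ = 2 * (g * N) := by ring

/-- the inequality (LCM) -/
theorem lcm_of {p f m g N r s : ℕ} {D U : ℕ → Prop} (ok : Ok N D U) (hp : p.Prime) (hg : 1 ≤ g) (hf : 1 ≤ f) (hm : 2 ≤ m)
    (hr : r.Prime) (hro : orderOf (p : ZMod r) = f * m) (hs : s.Prime) (hso : orderOf (p : ZMod s) = f * (m - 1))
    (hrS : (∃ d, D d ∧ r ∣ p ^ (g * d) - 1) ∨ (∃ i, U i ∧ r ∣ p ^ (g * i) + 1))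
    (hsS : (∃ d, D d ∧ s ∣ p ^ (g * d) - 1) ∨ (∃ i, U i ∧ s ∣ p ^ (g * i) + 1)) :
    f * (m * (m - 1)) ≤ 2 * (g * N) := by
  have hp1 : 1 ≤ p := hp.one_lt.le
  have two : ∀ t, t.Prime → t = 2 → orderOf (p : ZMod t) ≤ 1 := by
    rintro t _ rfl
    by_cases h : (p : ZMod 2) = 1
    · rw [h, orderOf_one]
    · have h0 : (p : ZMod 2) = 0 := by
        revert h
        generalize (p : ZMod 2) = z
        revert z
        decide
      rw [h0, orderOf_eq_zero_iff'.2]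
      · omega
      · intro n hn
        rw [zero_pow (by omega)]
        exact zero_ne_one
  have hr2 : r ≠ 2 := by
    intro h
    have := two r hr h
    rw [hro] at this
    have : 1 * 2 ≤ f * m := Nat.mul_le_mul hf hm
    omega
  by_cases hs2 : s = 2
  · have h1 := two s hs hs2
    rw [hso] at h1
    have h2 : f * 1 ≤ f * (m - 1) := Nat.mul_le_mul_left _ (by omega)
    have hf1 : f = 1 := by omega
    subst hf1
    have hm2 : m = 2 := by omega
    subst hm2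
    have := Nat.mul_le_mul hg ok.pos
    omega
  · have upos : ∀ i, U i → 1 ≤ i := fun i hi => (ok.odd i hi).pos
    rcases hrS with ⟨d, hd, h1⟩ | ⟨i, hi, h1⟩
    · have e1 : f * m ∣ g * d := hro ▸ ord_dvd_of_sub hp1 h1
      rcases hsS with ⟨d', hd', h2⟩ | ⟨j, hj, h2⟩
      · exact le_of_dvd hm (ok.dpos d hd) (ok.dpos d' hd') hg e1 (hso ▸ ord_dvd_of_sub hp1 h2) (ok.lcm d d' hd hd')
      · have e2 : f * (m - 1) ∣ 2 * (g * j) := hso ▸ ord_dvd_of_add h2
        have hj1 := upos j hj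
        exact le_of_dvd hm (ok.dpos d hd) (y := 2 * j) (by omega) hg e1 (by rwa [mul_left_comm] at e2) (ok.lcm' d j hd hj)
    · have e1 : f * m ∣ 2 * (g * i) := hro ▸ ord_dvd_of_add h1
      have hi1 := upos i hi
      rcases hsS with ⟨d', hd', h2⟩ | ⟨j, hj, h2⟩
      · refine le_of_dvd hm (x := 2 * i) (by omega) (ok.dpos d' hd') hg (by rwa [mul_left_comm] at e1)
          (hso ▸ ord_dvd_of_sub hp1 h2) ?_
        rw [Nat.lcm_comm]
        exact ok.lcm' d' i hd' hi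
      · exfalso
        refine par hf hm hg (ok.odd i hi) (ok.odd j hj) e1 ?_ (hso ▸ ord_dvd_of_add h2) ?_
        · rw [← hro]
          exact not_ord_dvd_of_add hr hr2 h1
        · rw [← hso]
          exact not_ord_dvd_of_add hs hs2 h2

end

/-! ### the types -/

theorem mul_le_of_ne {a b n : ℕ} (ha : a ≤ n) (hb : b ≤ n) (hab : a ≠ b) : a * b ≤ n * (n - 1) := by
  rcases lt_or_gt_of_ne hab with h | h
  · calc a * b = b * a := mul_comm _ _
      _ ≤ n * (n - 1) := Nat.mul_le_mul hb (by omega)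
  · exact Nat.mul_le_mul ha (by omega)

theorem lcm_le_mul' (a b : ℕ) : Nat.lcm a b ≤ a * b := by
  rcases Nat.eq_zero_or_pos a with h | h
  · subst h; simp
  · rcases Nat.eq_zero_or_pos b with h' | h'
    · subst h'; simp
    · exact Nat.le_of_dvd (Nat.mul_pos h h') (Nat.lcm_dvd_mul a b)

theorem lcm_le_of {a b n : ℕ} (hn : 2 ≤ n) (ha : a ≤ n) (hb : b ≤ n) : Nat.lcm a b ≤ n * (n - 1) := by
  by_cases hab : a = b
  · subst hab
    rw [Nat.lcm_self]
    calc a ≤ n * 1 := by omega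
      _ ≤ n * (n - 1) := Nat.mul_le_mul_left _ (by omega)
  · exact (lcm_le_mul' a b).trans (mul_le_of_ne ha hb hab)

theorem tri (n : ℕ) : 2 * (n * (n - 1) / 2) = n * (n - 1) := by
  apply Nat.mul_div_cancel'
  rcases Nat.even_or_odd n with h | h
  · exact Dvd.dvd.mul_right h.two_dvd _
  · rcases h with ⟨c, hc⟩
    exact Dvd.dvd.mul_left ⟨c, by omega⟩ _

theorem tri_pos {n : ℕ} (hn : 2 ≤ n) : 1 ≤ n * (n - 1) / 2 := by
  have h1 := tri n
  have h2 : 2 * 1 ≤ n * (n - 1) := Nat.mul_le_mul hn (by omega)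
  omega

/-- type A -/
theorem ok_A {n : ℕ} (hn : 2 ≤ n) : Ok (n * (n - 1) / 2) (fun d => 2 ≤ d ∧ d ≤ n) (fun _ => False) where
  pos := tri_pos hn
  dpos d hd := by omega
  lcm d d' hd hd' := by
    rw [tri]
    exact lcm_le_of hn hd.2 hd'.2
  lcm' _ _ _ h := h.elim
  odd _ h := h.elim

/-- type B, C -/
theorem ok_B {m : ℕ} (hm : 2 ≤ m) : Ok (m ^ 2) (fun d => ∃ i, 1 ≤ i ∧ i ≤ m ∧ d = 2 * i) (fun _ => False) where
  pos := Nat.one_le_pow _ _ (by omega)
  dpos d hd := by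
    obtain ⟨i, h1, -, rfl⟩ := hd
    omega
  lcm d d' hd hd' := by
    obtain ⟨i, h1, h2, rfl⟩ := hd
    obtain ⟨j, h3, h4, rfl⟩ := hd'
    rw [Nat.lcm_mul_left]
    refine Nat.mul_le_mul_left _ ((lcm_le_of hm h2 h4).trans ?_)
    rw [pow_two]
    exact Nat.mul_le_mul_left _ (by omega)
  lcm' _ _ _ h := h.elim
  odd _ h := h.elim

/-- type D -/
theorem ok_D {m : ℕ} (hm : 4 ≤ m) : Ok (m * (m - 1)) (fun d => d = m ∨ ∃ i, 1 ≤ i ∧ i < m ∧ d = 2 * i) (fun _ => False) where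
  pos := Nat.mul_pos (by omega) (by omega)
  dpos d hd := by
    rcases hd with rfl | ⟨i, h1, -, rfl⟩ <;> omega
  lcm d d' hd hd' := by
    have key : ∀ i, 1 ≤ i → i < m → Nat.lcm m (2 * i) ≤ 2 * (m * (m - 1)) := by
      intro i _ h2
      refine (lcm_le_mul' _ _).trans ?_
      rw [mul_left_comm]
      exact Nat.mul_le_mul_left _ (Nat.mul_le_mul_left _ (by omega))
    rcases hd with rfl | ⟨i, h1, h2, rfl⟩
    · rcases hd' with rfl | ⟨j, h3, h4, rfl⟩
      · rw [Nat.lcm_self]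
        have : d' * 1 ≤ d' * (d' - 1) := Nat.mul_le_mul_left _ (by omega)
        omega
      · exact key j h3 h4
    · rcases hd' with rfl | ⟨j, h3, h4, rfl⟩
      · rw [Nat.lcm_comm]
        exact key i h1 h2
      · rw [Nat.lcm_mul_left]
        exact Nat.mul_le_mul_left _ (lcm_le_of (by omega) h2.le h4.le)
  lcm' _ _ _ h := h.elim
  odd _ h := h.elim

/-- type ²D -/
theorem ok_D2 {m : ℕ} (hm : 4 ≤ m) : Ok (m * (m - 1)) (fun d => ∃ i, 1 ≤ i ∧ i ≤ m ∧ d = 2 * i) (fun _ => False) where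
  pos := Nat.mul_pos (by omega) (by omega)
  dpos d hd := by
    obtain ⟨i, h1, -, rfl⟩ := hd
    omega
  lcm d d' hd hd' := by
    obtain ⟨i, h1, h2, rfl⟩ := hd
    obtain ⟨j, h3, h4, rfl⟩ := hd'
    rw [Nat.lcm_mul_left]
    exact Nat.mul_le_mul_left _ (lcm_le_of (by omega) h2 h4)
  lcm' _ _ _ h := h.elim
  odd _ h := h.elim

/-- type ²A -/
theorem ok_U {n : ℕ} (hn : 3 ≤ n) : Ok (n * (n - 1) / 2) (fun d => Even d ∧ 2 ≤ d ∧ d ≤ n) (fun i => Odd i ∧ i ≤ n) where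
  pos := tri_pos (by omega)
  dpos d hd := by omega
  lcm d d' hd hd' := by
    rw [tri]
    exact lcm_le_of (by omega) hd.2.2 hd'.2.2
  lcm' d i hd hi := by
    rw [tri]
    obtain ⟨c, hc⟩ := hd.1
    obtain ⟨e, he⟩ := hi.1
    have h1 : d = 2 * c := by omega
    calc Nat.lcm d (2 * i) = 2 * Nat.lcm c i := by rw [h1, Nat.lcm_mul_left]
      _ ≤ 2 * (c * i) := Nat.mul_le_mul_left _ (lcm_le_mul' _ _)
      _ = d * i := by rw [h1, mul_assoc]
      _ ≤ n * (n - 1) := mul_le_of_ne hd.2.2 hi.2 (by omega)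
  odd i hi := hi.1

/-- a finite table -/
theorem ok_fin {N : ℕ} {D U : ℕ → Prop} (LD LU : List ℕ) (hD : ∀ d, D d → d ∈ LD) (hU : ∀ i, U i → i ∈ LU) (h0 : 1 ≤ N)
    (h1 : ∀ d ∈ LD, 1 ≤ d) (h2 : ∀ d ∈ LD, ∀ d' ∈ LD, Nat.lcm d d' ≤ 2 * N)
    (h3 : ∀ d ∈ LD, ∀ i ∈ LU, Nat.lcm d (2 * i) ≤ 2 * N) (h4 : ∀ i ∈ LU, i % 2 = 1) : Ok N D U where
  pos := h0
  dpos d hd := h1 d (hD d hd)
  lcm d d' hd hd' := h2 d (hD d hd) d' (hD d' hd')
  lcm' d i hd hi := h3 d (hD d hd) i (hU i hi)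
  odd i hi := Nat.odd_iff.2 (h4 i (hU i hi))

end Cfsg.Agent.H60.Rd
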