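import Cfsg.Agent.H142.Rd.Tab
import Cfsg.Agent.H60.Rd.Num

/-!
# S3691, residual case F-D+2, P1a (helper60, statement of helper117)
-/

set_option autoImplicit false

namespace Cfsg.Agent.H60.Rd

open Cfsg Cfsg.Agent.H142.Rd

universe u

theorem ok_kind {N : ℕ} {D U : ℕ → Prop} (h : Kind N D U) : Ok N D U := by
  cases h with
  | A n hn => exact ok_A hn
  | B m hm => exact ok_B hm
  | D m hm => exact ok_D hm
  | D2 m hm => exact ok_D2 hm
  | U n hn => exact ok_U hn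
  | G2 =>
    refine ok_fin [2, 6] [] (fun _ h => h) (fun _ h => False.elim h) ?_ ?_ ?_ ?_ ?_ <;> decide
  | F4 =>
    refine ok_fin [2, 6, 8, 12] [] (fun _ h => h) (fun _ h => False.elim h) ?_ ?_ ?_ ?_ ?_ <;> decide
  | E6 =>
    refine ok_fin [2, 5, 6, 8, 9, 12] [] (fun _ h => h) (fun _ h => False.elim h) ?_ ?_ ?_ ?_ ?_ <;> decide
  | E7 =>
    refine ok_fin [2, 6, 8, 10, 12, 14, 18] [] (fun _ h => h) (fun _ h => False.elim h) ?_ ?_ ?_ ?_ ?_ <;> decide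
  | E8 =>
    refine ok_fin [2, 8, 12, 14, 18, 20, 24, 30] [] (fun _ h => h) (fun _ h => False.elim h) ?_ ?_ ?_ ?_ ?_ <;> decide
  | TE6 =>
    refine ok_fin [2, 6, 8, 12] [5, 9] (fun _ h => h) (fun _ h => h) ?_ ?_ ?_ ?_ ?_ <;> decide
  | TD4 =>
    refine ok_fin [2, 6, 12] [] (fun _ h => h) (fun _ h => False.elim h) ?_ ?_ ?_ ?_ ?_ <;> decide
  | Sz =>
    refine ok_fin [1, 4] [] (fun _ h => h) (fun _ h => False.elim h) ?_ ?_ ?_ ?_ ?_ <;> decide
  | Ree =>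
    refine ok_fin [1, 6] [] (fun _ h => h) (fun _ h => False.elim h) ?_ ?_ ?_ ?_ ?_ <;> decide
  | TF4 =>
    refine ok_fin [1, 4, 6, 12] [] (fun _ h => h) (fun _ h => False.elim h) ?_ ?_ ?_ ?_ ?_ <;> decide

theorem ne_of_ord {p k r : ℕ} (hr : r.Prime) (hk : 1 ≤ k) (hro : orderOf (p : ZMod r) = k) : r ≠ p := by
  rintro rfl
  have : Fact r.Prime := ⟨hr⟩
  rw [ZMod.natCast_self, orderOf_eq_zero_iff'.2] at hro
  · omega
  · intro n hn
    rw [zero_pow (by omega)]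
    exact zero_ne_one

/-- (P1a) -/
theorem lcm_lie (tab : OrdDiv.OrderTable.{u}) {S : Type u} [Group S] [Finite S] [IsSimpleGroup S]
    (_hna : ¬ IsMulCommutative S) {p f m r s : ℕ} (hp : p.Prime) (hf : 1 ≤ f) (hm : 2 ≤ m) (hS : IsLieTypeChar p S)
    (hr : r.Prime) (hro : orderOf (p : ZMod r) = f * m) (hs : s.Prime) (hso : orderOf (p : ZMod s) = f * (m - 1))
    (hrS : r ∣ Nat.card S) (hsS : s ∣ Nat.card S) : f * (m * (m - 1)) ≤ 2 * (Nat.card S).factorization p := by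
  obtain ⟨g, N, D, U, hg, hk, hd⟩ := exists_kind tab hp hS
  rw [hd.val]
  exact lcm_of (ok_kind hk) hp hg hf hm hr hro hs hso
    (hd.pr r hr hrS (ne_of_ord hr (Nat.mul_pos hf (by omega)) hro))
    (hd.pr s hs hsS (ne_of_ord hs (Nat.mul_pos hf (by omega)) hso))

end Cfsg.Agent.H60.Rd
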